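import Cfsg.Agent.FrobNil.C

/-!
# The case without solvable normal subgroups, and the theorem
-/

namespace CF.FrobNil

open Subgroup CF.Solv CF.Coprime Cfsg
open scoped Pointwise commutatorElement IsMulCommutative

universe u

variable {G : Type u} [Group G] {X F H : Subgroup G}

theorem pc_ne_bot [Finite G] {r : ℕ} [Fact r.Prime] {Y : Subgroup G} [Group.IsNilpotent Y]
    (h : r ∣ Nat.card Y) : pc {r} Y ≠ ⊥ := by
  obtain ⟨P, hP⟩ := exists_isSylowOf r Y
  exact fun e => hP.ne_bot h (eq_bot_iff.mpr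
    (e ▸ le_pc hP.le (isPGroup_iff_piNum_singleton.mp hP.isPGroup)))

theorem exists_odd_inv [Finite G] (h : Hyp X F H) (hX2 : ¬ IsPGroup 2 X)
    (ih1 : ∀ Y < X, F ≤ normalizer (Y : Set G) → H ≤ normalizer (Y : Set G) → Group.IsNilpotent Y) :
    ∃ p : ℕ, p.Prime ∧ p ≠ 2 ∧ ∃ U ≤ X, U ≠ ⊥ ∧ IsPGroup p U ∧ F ⊔ H ≤ normalizer (U : Set G) := by
  have := h.nil
  have hMF : F ⊔ H ≤ normalizer (F : Set G) := sup_le le_normalizer h.HF
  have hMX : F ⊔ H ≤ normalizer (X : Set G) := sup_le h.FX h.HX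
  have hpc : ∀ π : Set ℕ, F ⊔ H ≤ normalizer
      ((X ⊓ centralizer (pc π F : Set G) : Subgroup G) : Set G) := fun π =>
    le_normalizer_inf hMX (hMF.trans ((norm_pc π F).trans (normalizer_le_normalizer_centralizer _)))
  have key : ∀ (π : Set ℕ) (r : ℕ), r.Prime → r ≠ 2 → ¬ X ≤ centralizer (pc π F : Set G) →
      r ∣ Nat.card (X ⊓ centralizer (pc π F : Set G) : Subgroup G) →
      ∃ p : ℕ, p.Prime ∧ p ≠ 2 ∧ ∃ U ≤ X, U ≠ ⊥ ∧ IsPGroup p U ∧
        F ⊔ H ≤ normalizer (U : Set G) := by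
    intro π r hr hr2 h1 h2
    have := Fact.mk hr
    have := ih1 _ (inf_lt_left.mpr h1) (le_sup_left.trans (hpc π)) (le_sup_right.trans (hpc π))
    exact ⟨r, hr, hr2, _, (pc_le _ _).trans inf_le_left, pc_ne_bot h2, pc_isPGroup r _,
      (hpc π).trans (norm_pc _ _)⟩
  by_cases hA : ∃ r : ℕ, r.Prime ∧ r ≠ 2 ∧ r ∣ Nat.card X ∧ ¬ X ≤ centralizer (pc {r} F : Set G)
  · obtain ⟨r, hr, hr2, hrX, hc⟩ := hA
    have := Fact.mk hr
    exact key {r} r hr hr2 hc (dvd_card_inf_cent (pc_isPGroup r F) ((pc_le _ _).trans h.FX) hrX)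
  push Not at hA
  let π : Set ℕ := {q | q ∣ Nat.card X}ᶜ
  have hfix : ∀ y ∈ X, y ∈ centralizer (pc π F : Set G) → (2 ∣ Nat.card X →
      y ∈ centralizer (pc {2} F : Set G)) → y = 1 := by
    intro y hy h1 h2
    have h3 : F ≤ centralizer {y} := le_of_forall_isPGroup_le fun r hr P hPF hP => by
      have h4 : ∀ ρ : Set ℕ, r ∈ ρ → y ∈ centralizer (pc ρ F : Set G) → P ≤ centralizer {y} :=
        fun ρ hρ hc a ha => mem_centralizer_singleton_iff.mpr (mem_centralizer_iff.mp hc a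
          (le_pc hPF ((isPGroup_iff_piNum_singleton.mp hP).mono (by simpa using hρ)) ha))
      by_cases hrX : r ∣ Nat.card X
      · by_cases hr2 : r = 2
        · subst hr2; exact h4 {2} rfl (h2 hrX)
        · exact h4 {r} rfl (hA r hr.out hr2 hrX hy)
      · exact h4 π hrX h1
    exact eq_one_of_bot h.fix hy (mem_centralizer_iff.mpr fun a ha =>
      mem_centralizer_singleton_iff.mp (h3 ha))
  by_cases hY : X ⊓ centralizer (pc π F : Set G) = ⊥
  · obtain ⟨q, hq, hqK, hq2⟩ : ∃ q : ℕ, q.Prime ∧ q ∣ Nat.card X ∧ q ≠ 2 := by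
      by_contra h
      push Not at h
      exact hX2 (isPGroup_iff_piNum_singleton.mpr h)
    have := Fact.mk hq
    obtain ⟨P, hP⟩ := exists_isSylowOf q X
    have : Group.IsNilpotent (pc π F) := isNilpotent_of_le (pc_le _ F)
    obtain ⟨k, hk, hM⟩ := exists_inv_conj (D := pc π F) (K := X) (M := F ⊔ H) hMX
      ((pc_le _ F).trans le_sup_left) (hMF.trans (norm_pc _ F))
      (piNum_compl_setOf_dvd_iff.mp (piNum_card_map_piCore F)) hY P
      (fun m hm => hP.conj (hP.conj_smul (hMX hm)))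
    have hP' := hP.conj_smul (le_normalizer hk)
    exact ⟨q, hq, hq2, _, hP'.le, hP'.ne_bot hqK, hP'.isPGroup, hM⟩
  have hodd : ¬ 2 ∣ Nat.card (X ⊓ centralizer (pc π F : Set G) : Subgroup G) := by
    intro h2
    obtain ⟨z, hz, hz1, hzc⟩ := Fgs1.exists_fixed_of_dvd_card (pc_isPGroup 2 F)
      ((pc_le _ _).trans (le_sup_left.trans (hpc π))) h2
    exact hz1 (hfix z hz.1 hz.2 fun _ => hzc)
  have h1 := (one_lt_card_iff_ne_bot _).mpr hY
  refine key π _ (Nat.minFac_prime h1.ne') (fun e => hodd (e ▸ Nat.minFac_dvd _)) (fun e => ?_)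
    (Nat.minFac_dvd _)
  rw [inf_eq_left.mpr e] at hodd hY
  exact hY (eq_bot_iff.mpr fun y hy => hfix y hy (e hy) fun h2 => (hodd h2).elim)

theorem step_simple [Finite G] (h : Hyp X F H)
    (ih1 : ∀ Y < X, F ≤ normalizer (Y : Set G) → H ≤ normalizer (Y : Set G) → Group.IsNilpotent Y)
    (hs : ∀ N ≤ X, N ≠ ⊥ → Group.IsNilpotent N → X ≤ normalizer (N : Set G) →
      F ⊔ H ≤ normalizer (N : Set G) → False) : X = ⊥ := by
  by_contra hX1
  have hMX : F ⊔ H ≤ normalizer (X : Set G) := sup_le h.FX h.HX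
  have hXp : ∀ p : ℕ, p.Prime → ¬ IsPGroup p X := fun p hp hX => by
    have := Fact.mk hp
    exact hs X le_rfl hX1 hX.isNilpotent le_normalizer hMX
  obtain ⟨p, hp, hp2, U, hUX, hU1, hU, hMU⟩ := exists_odd_inv h (hXp 2 Nat.prime_two) ih1
  have := Fact.mk hp
  have key : ∀ N ≤ X, N ≠ ⊥ → IsPGroup p N → F ⊔ H ≤ normalizer (N : Set G) →
      Group.IsNilpotent (X ⊓ normalizer (N : Set G) : Subgroup G) := fun N hN h1 h2 h3 =>
    have h4 := le_normalizer_inf hMX (h3.trans le_normalizer)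
    ih1 _ (inf_lt_left.mpr fun h => hs N hN h1 h2.isNilpotent h h3) (le_sup_left.trans h4)
      (le_sup_right.trans h4)
  obtain ⟨S, ⟨hSX, hS1, hSp, hMS⟩, hmax⟩ := Set.Finite.exists_maximalFor id
    {S : Subgroup G | S ≤ X ∧ S ≠ ⊥ ∧ IsPGroup p S ∧ F ⊔ H ≤ normalizer (S : Set G)}
    (Set.toFinite _) ⟨U, hUX, hU1, hU, hMU⟩
  have hS : IsSylowOf p S X := by
    have := key S hSX hS1 hSp hMS
    have h1 : S ≤ X ⊓ normalizer (S : Set G) := le_inf hSX le_normalizer
    have h2 : S ≤ pc {p} (X ⊓ normalizer (S : Set G)) :=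
      le_pc h1 (isPGroup_iff_piNum_singleton.mp hSp)
    have h3 : pc {p} (X ⊓ normalizer (S : Set G)) ≤ S := hmax ⟨(pc_le _ _).trans inf_le_left,
      fun e => hS1 (eq_bot_iff.mpr (e ▸ h2)), pc_isPGroup p _,
      (le_normalizer_inf hMX (hMS.trans le_normalizer)).trans (norm_pc _ _)⟩ h2
    obtain ⟨P, hP, hSP⟩ := exists_isSylowOf_ge h1 hSp
    have h4 : P ≤ S := (le_pc hP.le (isPGroup_iff_piNum_singleton.mp hP.isPGroup)).trans h3
    rw [le_antisymm h4 hSP] at hP
    exact isSylowOf_of_normalizer hSX hP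
  obtain ⟨z, hz, hz1, hzc⟩ := Fgs1.exists_fixed_of_isPGroup hS.isPGroup le_normalizer
    hS.isPGroup hS1
  have hnpc := hasNPC_of_isNilpotent_local hp2 hS (key _ ((PLocal.thompson_le p S).trans hSX) (by
      obtain ⟨x, hx⟩ := exists_prime_orderOf_dvd_card' (G := S) p
        (Fgs1.dvd_card_of_ne_bot hS.isPGroup hS1)
      refine PLocal.thompson_ne_bot x.2 (fun h => hp.ne_one ?_) ?_
      · rw [← hx, orderOf_eq_one_iff]; exact Subtype.ext h
      · rw [← hx, ← orderOf_coe]; exact pow_orderOf_eq_one _)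
    (hSp.to_le (PLocal.thompson_le p S))
    (hMS.trans (PLocal.normalizer_le_normalizer_thompson p S))) (by
      have := key (S ⊓ centralizer (S : Set G)) (inf_le_left.trans hSX)
        (fun h => hz1 (eq_one_of_bot h hz hzc)) (hSp.to_le inf_le_left)
        (le_normalizer_inf hMS (hMS.trans (normalizer_le_normalizer_centralizer S)))
      exact isNilpotent_of_le (inf_le_inf_left _ (centralizer_le_normalizer _)))
  rw [Transfer.hasNPC_subgroup_iff_not_dvd] at hnpc
  have hle : Transfer.pRes p X ≤ X := Transfer.pRes_le X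
  have hpX : p ∣ Nat.card X := (Fgs1.dvd_card_of_ne_bot hSp hS1).trans (card_dvd_of_le hSX)
  have hn := hMX.trans (Transfer.normalizer_le_normalizer_pRes (p := p) X)
  by_cases h3 : Transfer.pRes p X = ⊥
  · exact hXp p hp (Transfer.pRes_eq_bot_iff.mp h3)
  · exact hs _ hle h3 (ih1 _ (lt_of_le_of_ne hle fun h => hnpc (h.symm ▸ hpX))
      (le_sup_left.trans hn) (le_sup_right.trans hn))
      (le_normalizer.trans (Transfer.normalizer_le_normalizer_pRes X)) hn

theorem main_aux (n : ℕ) : ∀ (G : Type u) [Group G] [Finite G] (X F H : Subgroup G),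
    Nat.card X = n → Hyp X F H → Group.IsNilpotent X := by
  induction n using Nat.strong_induction_on with
  | _ n ih =>
  have step : ∀ (G : Type u) [Group G] [Finite G] (X F H : Subgroup G), Nat.card X = n →
      Hyp X F H → X ⊔ (F ⊔ H) = ⊤ → Group.IsNilpotent X := by
    intro G _ _ X F H hn h htop
    have hnorm : ∀ N : Subgroup G, X ≤ normalizer (N : Set G) → F ≤ normalizer (N : Set G) →
        H ≤ normalizer (N : Set G) → N.Normal := fun N h1 h2 h3 =>
      normalizer_eq_top_iff.mp (eq_top_iff.mpr (htop ▸ sup_le h1 (sup_le h2 h3)))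
    have ih1 : ∀ Y < X, F ≤ normalizer (Y : Set G) → H ≤ normalizer (Y : Set G) →
        Group.IsNilpotent Y := fun Y hY h1 h2 =>
      ih _ (hn ▸ card_lt_of_lt hY) G Y F H rfl (h.mono hY.le h1 h2)
    by_contra hX
    refine hX ?_
    rw [step_simple h ih1 fun N hN hN1 hNn h1 h2 => hX ?_]
    · infer_instance
    have := hnorm N h1 (le_sup_left.trans h2) (le_sup_right.trans h2)
    refine step_solv h hnorm ih1 (fun W _ _ r _ hW1 hWX hW => ?_) N hN1 hN
    refine ih _ ?_ _ _ _ _ rfl (h.quot W hW hWX)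
    have h2 := card_map_mk'_mul W X
    rw [inf_eq_left.mpr hWX, hn] at h2
    have h3 := (one_lt_card_iff_ne_bot W).mpr hW1
    have h4 : 0 < Nat.card (X.map (QuotientGroup.mk' W)) := Nat.card_pos
    rw [← h2]
    exact lt_mul_of_one_lt_right h4 h3
  intro G _ _ X F H hn h
  have h1 : X ≤ X ⊔ (F ⊔ H) := le_sup_left
  have h2 : F ≤ X ⊔ (F ⊔ H) := le_sup_of_le_right le_sup_left
  have h3 : H ≤ X ⊔ (F ⊔ H) := le_sup_of_le_right le_sup_right
  have := step _ _ _ _ ((card_subgroupOf_of_le h1).trans hn) (h.subgroupOf h2 h3) (by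
    rw [← subgroupOf_sup h2 h3, ← subgroupOf_sup h1 (sup_le h2 h3), subgroupOf_self])
  exact Group.nilpotent_of_mulEquiv (subgroupOfEquivOfLe h1)

theorem Hyp.isNilpotent [Finite G] (h : Hyp X F H) : Group.IsNilpotent X :=
  main_aux _ G X F H rfl h

end CF.FrobNil
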